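import Cfsg.Agent.H380.EPU.Tools

/-!
# S3499, unitary socles, class C2: pairs of complementary totally singular subspaces (helper380)

`c2b : Kills C2b`. For `x` a transvection with centre in `D 0` the two-point stabiliser `A ∩ A^x` fixes `D 0`; by the
factorisation `A = [A, A] (A ∩ A^x)` so does `A`; but `Stab (D 0)` contains `x`.
-/

set_option autoImplicit false
set_option linter.unusedSectionVars false

namespace Cfsg.Agent.H380.EPU

open Subgroup Matrix Cfsg Cfsg.Geo Cfsg.Agent.H284 Cfsg.Agent.H419.EP Cfsg.Agent.LieClassical.HermBasic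
  Cfsg.Agent.LieClassical.HermSiegel Cfsg.Agent.ClassicalGeometry.PSUAutBasic Cfsg.Agent.H588.EPU
open scoped MatrixGroups commutatorElement

section comm

variable {Q : Type*} [Group Q] {A : Subgroup Q} {Γ : Subgroup (MulAut Q)}

theorem comm_inv (h : EPT A Γ) : ∀ σ ∈ Γ, ∀ k ∈ ⁅A, A⁆, σ k ∈ ⁅A, A⁆ := by
  intro σ hσ k hk
  have h1 : ⁅A, A⁆ ≤ (⁅A, A⁆).comap σ.toMonoidHom := by
    rw [Subgroup.commutator_le]
    intro a ha b hb
    rw [Subgroup.mem_comap, map_commutatorElement]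
    exact Subgroup.commutator_mem_commutator ((h.inv σ hσ a).2 ha) ((h.inv σ hσ b).2 hb)
  exact h1 hk

/-- `A` is not abelian -/
theorem comm_ne [Finite Q] (h : EPT A Γ) : ⁅A, A⁆ ≠ ⊥ := by
  intro e
  have hab : ∀ a ∈ A, ∀ b ∈ A, a * b = b * a := by
    intro a ha b hb
    have h1 := Subgroup.commutator_mem_commutator ha hb
    rw [e, mem_bot, commutatorElement_eq_one_iff_mul_comm] at h1
    exact h1
  have hnil : Group.IsNilpotent A := by
    let _ : CommGroup A :=
      { (inferInstance : Group A) with mul_comm := fun a b => Subtype.ext (hab _ a.2 _ b.2) }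
    infer_instance
  obtain ⟨x, hx⟩ := h.exists_notMem
  obtain ⟨-, -, -, h4, -⟩ := h.nilp A le_rfl (fun σ hσ k hk => (h.inv σ hσ k).2 hk) hnil h.ne
  exact h.M0 x hx (h4 x hx).1

end comm

section su

variable {F : Type*} [Field F] {n q : ℕ}

/-- the stabiliser of a subspace -/
def stW (q : ℕ) (W : Submodule F (Fin n → F)) : Subgroup (SU n F q) where
  carrier := {s | ∀ v, act s v ∈ W ↔ v ∈ W}
  one_mem' := fun v => by rw [act_one]
  mul_mem' := fun {a b} ha hb v => by rw [act_mul, ha, hb]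
  inv_mem' := fun {a} ha v => by rw [← ha, act_act_inv]

theorem mem_stW {W : Submodule F (Fin n → F)} {s : SU n F q} : s ∈ stW q W ↔ ∀ v, act s v ∈ W ↔ v ∈ W := Iff.rfl

theorem mem_iff_of_map {s : SU n F q} {W W' : Submodule F (Fin n → F)} (h : W.map (Matrix.toLin' (mat s)) = W')
    (v : Fin n → F) : act s v ∈ W' ↔ v ∈ W := by
  rw [← h, Submodule.mem_map]
  constructor
  · rintro ⟨w, hw, e⟩
    have : w = v := act_injective s (by rw [← e, Matrix.toLin'_apply, act_def])
    rwa [← this]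
  · intro hv
    exact ⟨v, hv, by rw [Matrix.toLin'_apply, act_def]⟩

theorem inv_eq_of_act {s : SU n F q} {v w : Fin n → F} (h : act s v = w) : act s⁻¹ w = v := by
  rw [← h, act_inv_act]

end su

/-- **C2, totally singular pairs** -/
theorem c2b : Kills C2b := by
  intro Q _ _ hs A Γ h F _ _ n q m hF hn _ _ M hM hle
  obtain ⟨k, D, hk, hD, hTS, rfl⟩ := hM
  have hn0 : 0 < n := by omega
  set P := PJ.ofModel m hn0 with hP
  have hst : ∀ s : SU n F q, P.φ s ∈ A → ∃ σ : Equiv.Perm (Fin 2), ∀ i v, act s v ∈ D (σ i) ↔ v ∈ D i := by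
    intro s hsA
    rw [hP, mem_iff] at hsA
    obtain ⟨σ, hσ⟩ := (Subgroup.mem_inf.1 (hle hsA)).1
    exact ⟨σ, fun i v => mem_iff_of_map (hσ i) v⟩
  -- complements
  have hdisj : ∀ v, v ∈ D 0 → v ∈ D 1 → v = 0 := by
    intro v h0 h1
    have h2 := hD.indep.pairwiseDisjoint (show (0 : Fin 2) ≠ 1 by decide)
    have h3 := Submodule.disjoint_def.1 h2
    exact h3 v h0 h1
  have hsum : ∀ v, ∃ v0 ∈ D 0, ∃ v1 ∈ D 1, v = v0 + v1 := by
    intro v
    have h1 : v ∈ D 0 ⊔ D 1 := by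
      have h2 : D 0 ⊔ D 1 = ⊤ := by
        rw [← hD.iSup_eq_top]
        apply le_antisymm
        · exact sup_le (le_iSup D 0) (le_iSup D 1)
        · refine iSup_le fun i => ?_
          fin_cases i
          · exact le_sup_left
          · exact le_sup_right
      rw [h2]
      exact Submodule.mem_top
    obtain ⟨a, ha, b, hb, e⟩ := Submodule.mem_sup.1 h1
    exact ⟨a, ha, b, hb, e.symm⟩
  have hne : ∀ i, ∃ v ∈ D i, v ≠ 0 := by
    intro i
    by_contra hcon
    push Not at hcon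
    have h1 : D i = ⊥ := (Submodule.eq_bot_iff _).2 hcon
    have h2 := hD.finrank_eq i
    rw [h1, finrank_bot] at h2
    have h3 := hD.pos
    omega
  have hpair : ∀ v, v ∈ D 0 → v ≠ 0 → ∃ u ∈ D 1, hermForm n F q u v ≠ 0 := by
    intro v hv hv0
    obtain ⟨w, hw⟩ := exists_herm_ne_zero hF hv0
    obtain ⟨w0, h0, w1, h1, rfl⟩ := hsum w
    refine ⟨w1, h1, ?_⟩
    intro e
    apply hw
    rw [herm_add_right hF, hTS 0 v hv w0 h0, herm_eq_zero_swap hF e, add_zero]
  have hpair' : ∀ v, v ∈ D 1 → v ≠ 0 → ∃ u ∈ D 0, hermForm n F q u v ≠ 0 := by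
    intro v hv hv0
    obtain ⟨w, hw⟩ := exists_herm_ne_zero hF hv0
    obtain ⟨w0, h0, w1, h1, rfl⟩ := hsum w
    refine ⟨w0, h0, ?_⟩
    intro e
    apply hw
    rw [herm_add_right hF, hTS 1 v hv w1 h1, herm_eq_zero_swap hF e, add_zero]
  obtain ⟨μ, hμ0, hμ⟩ := exists_trace_zero_ne hF
  obtain ⟨v, hv, hv0⟩ := hne 0
  obtain ⟨u, hu, huv⟩ := hpair v hv hv0
  have hvv : hermForm n F q v v = 0 := hTS 0 v hv v hv
  set t := transv hF v hvv μ hμ with ht
  have htact : ∀ w, act t w = w + (μ * hermForm n F q w v) • v := fun w => act_transv hF hvv hμ w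
  have htfix : ∀ w ∈ D 0, act t w = w := by
    intro w hw
    rw [htact, hTS 0 w hw v hv, mul_zero, zero_smul, add_zero]
  have htfix' : ∀ w ∈ D 0, act t⁻¹ w = w := fun w hw => inv_eq_of_act (htfix w hw)
  -- no element of `SU` with `t u ∈ D 1`
  have hkey : act t u ∉ D 1 := by
    intro hcon
    have h1 : (μ * hermForm n F q u v) • v ∈ D 1 := by
      have := (D 1).sub_mem hcon hu
      rwa [htact, add_sub_cancel_left] at this
    have h2 := (Submodule.smul_mem_iff _ (mul_ne_zero hμ0 huv)).1 h1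
    exact hv0 (hdisj v hv h2)
  have hperm : ∀ σ : Equiv.Perm (Fin 2), (σ 0 = 0 ∧ σ 1 = 1) ∨ (σ 0 = 1 ∧ σ 1 = 0) := by decide
  have htA : P.φ t ∉ A := by
    intro hcon
    obtain ⟨σ, hσ⟩ := hst t hcon
    rcases hperm σ with ⟨h0, h1⟩ | ⟨h0, h1⟩
    · have := hσ 1 u
      rw [h1] at this
      exact hkey (this.2 hu)
    · have := hσ 0 v
      rw [h0, htfix v hv] at this
      exact hv0 (hdisj v hv (this.2 hv))
  -- elements of `A` and of `A ∩ A^t`
  have hfs : ∀ s : SU n F q, P.φ s ∈ A → (∀ w, (act s w ∈ D 0 ↔ w ∈ D 0) ∧ (act s w ∈ D 1 ↔ w ∈ D 1)) ∨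
      (∀ w, (act s w ∈ D 1 ↔ w ∈ D 0) ∧ (act s w ∈ D 0 ↔ w ∈ D 1)) := by
    intro s hsA
    obtain ⟨σ, hσ⟩ := hst s hsA
    rcases hperm σ with ⟨h0, h1⟩ | ⟨h0, h1⟩
    · left
      intro w
      have e0 := hσ 0 w
      have e1 := hσ 1 w
      rw [h0] at e0
      rw [h1] at e1
      exact ⟨e0, e1⟩
    · right
      intro w
      have e0 := hσ 0 w
      have e1 := hσ 1 w
      rw [h0] at e0
      rw [h1] at e1
      exact ⟨e0, e1⟩
  have hM0 : ∀ s : SU n F q, P.φ s ∈ A → P.φ s ∈ cj (P.φ t) A → s ∈ stW q (D 0) := by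
    intro s hsA hsc
    rcases hfs s hsA with h1 | h1
    · exact fun w => (h1 w).1
    · exfalso
      rw [mem_cj, ← map_inv, ← map_mul, ← map_mul] at hsc
      have hs' : ∀ w, act (t⁻¹ * s * t) w = act t⁻¹ (act s (act t w)) := fun w => by rw [act_mul, act_mul]
      rcases hfs _ hsc with h2 | h2
      · have h3 := (h2 v).1.2 hv
        rw [hs', htfix v hv] at h3
        have h4 : act s v ∈ D 0 := by
          have h5 := htfix _ h3
          rw [act_act_inv] at h5
          rw [h5]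
          exact h3
        exact hv0 (act_eq_zero s |>.1 (hdisj _ h4 ((h1 v).1.2 hv)))
      · have hsu : act s⁻¹ u ∈ D 0 := by
          rw [← (h1 _).1, act_act_inv]
          exact hu
        have h3 := (h2 _).1.2 hsu
        rw [hs', htfix _ hsu, act_act_inv] at h3
        have h4 : act t (act t⁻¹ u) = u := act_act_inv t u
        rw [htact] at h4
        have h5 : (μ * hermForm n F q (act t⁻¹ u) v) • v ∈ D 1 := by
          have e7 : (μ * hermForm n F q (act t⁻¹ u) v) • v = u - act t⁻¹ u := by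
            rw [eq_sub_iff_add_eq, add_comm]
            exact h4
          rw [e7]
          exact (D 1).sub_mem hu h3
        by_cases h6 : hermForm n F q (act t⁻¹ u) v = 0
        · rw [h6, mul_zero, zero_smul, add_zero] at h4
          rw [h4] at h6
          exact huv h6
        · exact hv0 (hdisj v hv ((Submodule.smul_mem_iff _ (mul_ne_zero hμ0 h6)).1 h5))
  -- the commutator subgroup
  set A0 : Subgroup Q := (stW q (D 0)).map P.φ with hA0
  have hcm : ⁅A, A⁆ ≤ A0 := by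
    rw [Subgroup.commutator_le]
    intro a ha b hb
    obtain ⟨s, rfl⟩ := P.surj a
    obtain ⟨r, rfl⟩ := P.surj b
    rw [← map_commutatorElement]
    refine ⟨⁅s, r⁆, ?_, rfl⟩
    intro w
    rw [commutatorElement_def, act_mul, act_mul, act_mul]
    rcases hfs s ha with h1 | h1 <;> rcases hfs r hb with h2 | h2
    · rw [(h1 _).1, (h2 _).1, ← (h1 (act s⁻¹ (act r⁻¹ w))).1, act_act_inv, ← (h2 (act r⁻¹ w)).1, act_act_inv]
    · rw [(h1 _).1, (h2 _).2, ← (h1 (act s⁻¹ (act r⁻¹ w))).2, act_act_inv, ← (h2 (act r⁻¹ w)).2, act_act_inv]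
    · rw [(h1 _).2, (h2 _).2, ← (h1 (act s⁻¹ (act r⁻¹ w))).2, act_act_inv, ← (h2 (act r⁻¹ w)).1, act_act_inv]
    · rw [(h1 _).2, (h2 _).1, ← (h1 (act s⁻¹ (act r⁻¹ w))).1, act_act_inv, ← (h2 (act r⁻¹ w)).2, act_act_inv]
  have hAA0 : A ≤ A0 := by
    intro a ha
    obtain ⟨k, hk, b, hb, rfl⟩ := h.fac_A (Subgroup.commutator_le_self A) (comm_inv h) (comm_ne h) htA ha
    refine A0.mul_mem (hcm hk) ?_
    obtain ⟨s, rfl⟩ := P.surj b
    exact ⟨s, hM0 s (Subgroup.mem_inf.1 hb).1 (Subgroup.mem_inf.1 hb).2, rfl⟩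
  have hle2 : A.comap P.φ ≤ stW q (D 0) := by
    intro s hsA
    obtain ⟨r, hr, e⟩ := hAA0 hsA
    have h1 : P.φ (r⁻¹ * s) = 1 := by rw [map_mul, map_inv, e, inv_mul_cancel]
    obtain ⟨c, hc⟩ := (P.ker _).1 h1
    have hc0 : c ≠ 0 := by
      rintro rfl
      have := hc v
      rw [zero_smul, act_eq_zero] at this
      exact hv0 this
    have h2 : r⁻¹ * s ∈ stW q (D 0) := fun w => by rw [hc, Submodule.smul_mem_iff _ hc0]
    have h3 := (stW q (D 0)).mul_mem hr h2
    rwa [mul_inv_cancel_left] at h3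
  have hneT : stW q (D 0) ≠ ⊤ := by
    intro e
    obtain ⟨w, hw, hw0⟩ := hne 1
    obtain ⟨u', hu', huw⟩ := hpair' w hw hw0
    have hww : hermForm n F q w w = 0 := hTS 1 w hw w hw
    have h1 : transv hF w hww μ hμ ∈ stW q (D 0) := by rw [e]; exact mem_top _
    have h2 := (h1 u').2 hu'
    rw [act_transv] at h2
    have h3 : (μ * hermForm n F q u' w) • w ∈ D 0 := by
      have := (D 0).sub_mem h2 hu'
      rwa [add_sub_cancel_left] at this
    exact hw0 (hdisj w ((Submodule.smul_mem_iff _ (mul_ne_zero hμ0 huw)).1 h3) hw)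
  have heq := P.comap_eq h.max hle2 hneT
  apply htA
  have h5 : t ∈ A.comap P.φ := by
    rw [heq]
    intro w
    constructor
    · intro h6
      have h7 := htfix' _ h6
      rw [act_inv_act] at h7
      rw [h7]
      exact h6
    · intro h6
      rw [htfix w h6]
      exact h6
  exact h5

end Cfsg.Agent.H380.EPU
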