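import Cfsg.Agent.H380.EPU.Frame
import Cfsg.Agent.H380.EPU.CTwoB

/-!
# S3499, unitary socles, class C2: orthogonal decompositions (helper380)

`c2a : Kills C2a`.
-/

set_option autoImplicit false
set_option linter.unusedSectionVars false

namespace Cfsg.Agent.H380.EPU

open Subgroup Matrix Cfsg Cfsg.Geo Cfsg.Agent.H284 Cfsg.Agent.H419.EP Cfsg.Agent.LieClassical.HermBasic
  Cfsg.Agent.LieClassical.HermSiegel Cfsg.Agent.ClassicalGeometry.PSUAutBasic Cfsg.Agent.ClassicalGeometry.HermOrtho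
  Cfsg.Agent.H588.EPU
open Cfsg.Agent.H189.SN (ON)
open scoped MatrixGroups

variable {F : Type*} [Field F] [Fintype F] {n q : ℕ}

/-- a nonsingular vector orthogonal to a hyperbolic pair -/
theorem exists_z (hF : Fintype.card F = q ^ 2) {W : Submodule F (Fin n → F)}
    (hW : ∀ u ∈ W, (∀ v ∈ W, hermForm n F q u v = 0) → u = 0) (hd : 3 ≤ Module.finrank F W) {v w : Fin n → F}
    (hv : v ∈ W) (hw : w ∈ W) (hvv : hermForm n F q v v = 0) (hww : hermForm n F q w w = 0)
    (hvw : hermForm n F q v w ≠ 0) :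
    ∃ z ∈ W, hermForm n F q z v = 0 ∧ hermForm n F q z w = 0 ∧ hermForm n F q z z ≠ 0 := by
  by_contra hcon
  push Not at hcon
  have hwv : hermForm n F q w v ≠ 0 := fun e => hvw (herm_eq_zero_swap hF e)
  let U : Submodule F (Fin n → F) := W ⊓ hermPerp q {v, w}
  have hU : ∀ x, x ∈ U ↔ x ∈ W ∧ hermForm n F q x v = 0 ∧ hermForm n F q x w = 0 := by
    intro x
    rw [Submodule.mem_inf, mem_hermPerp]
    constructor
    · rintro ⟨h1, h2⟩
      exact ⟨h1, h2 v (Or.inl rfl), h2 w (Or.inr rfl)⟩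
    · rintro ⟨h1, h2, h3⟩
      refine ⟨h1, ?_⟩
      rintro y (rfl | rfl)
      · exact h2
      · exact h3
  have hiso : ∀ x ∈ U, hermForm n F q x x = 0 := by
    intro x hx
    obtain ⟨h1, h2, h3⟩ := (hU x).1 hx
    exact hcon x h1 h2 h3
  let f : W →ₗ[F] (F × F) := ((hermLeft q v).prod (hermLeft q w)).comp W.subtype
  have h1 : LinearMap.ker f ≠ ⊥ := by
    apply LinearMap.ker_ne_bot_of_finrank_lt
    rw [Module.finrank_prod, Module.finrank_self]
    omega
  obtain ⟨z, hz, hz0⟩ := (Submodule.ne_bot_iff _).1 h1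
  rw [LinearMap.mem_ker] at hz
  have h2 : (hermForm n F q z v, hermForm n F q z w) = (0, 0) := hz
  have hz1 : hermForm n F q z v = 0 := (Prod.ext_iff.1 h2).1
  have hz2 : hermForm n F q z w = 0 := (Prod.ext_iff.1 h2).2
  have hzU : (z : Fin n → F) ∈ U := (hU z).2 ⟨z.2, hz1, hz2⟩
  apply hz0
  apply Subtype.ext
  apply hW z z.2
  intro x hx
  have hx' : x - (hermForm n F q x w / hermForm n F q v w) • v - (hermForm n F q x v / hermForm n F q w v) • w ∈ U := by
    refine (hU _).2 ⟨W.sub_mem (W.sub_mem hx (W.smul_mem _ hv)) (W.smul_mem _ hw), ?_, ?_⟩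
    · simp only [herm_sub_left, herm_smul_left, hvv, mul_zero, sub_zero]
      rw [div_mul_cancel₀ _ hwv, sub_self]
    · simp only [herm_sub_left, herm_smul_left, hww, mul_zero, sub_zero]
      rw [div_mul_cancel₀ _ hvw, sub_self]
  have h3 := herm_eq_zero_of_isotropic hF U hiso hzU hx'
  rw [herm_sub_right hF, herm_sub_right hF, herm_smul_right, herm_smul_right, hz1, hz2, mul_zero, mul_zero, sub_zero,
    sub_zero] at h3
  exact h3

/-- an orthogonal decomposition of `V` into spaces of dimension `k` -/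
structure OD (q k t : ℕ) (D : Fin t → Submodule F (Fin n → F)) (B : Fin t × Fin k → (Fin n → F)) : Prop where
  t2 : 2 ≤ t
  k1 : 0 < k
  fin : ∀ i, Module.finrank F (D i) = k
  nd : ∀ i, ∀ u ∈ D i, (∀ v ∈ D i, hermForm n F q u v = 0) → u = 0
  orth : ∀ i j, i ≠ j → ∀ u ∈ D i, ∀ v ∈ D j, hermForm n F q u v = 0
  mem : ∀ p, B p ∈ D p.1
  on : ∀ p p', hermForm n F q (B p) (B p') = if p = p' then 1 else 0
  card : t * k = n
  sum : ∀ i, ∀ v ∈ D i, v = ∑ j, hermForm n F q v (B (i, j)) • B (i, j)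

theorem exists_od (hF : Fintype.card F = q ^ 2) {t k : ℕ} {D : Fin t → Submodule F (Fin n → F)}
    (hD : IsNondegenerateMDecomposition (hermForm n F q) k D) : ∃ B, OD q k t D B := by
  have hnd : ∀ i, ∀ u ∈ D i, (∀ v ∈ D i, hermForm n F q u v = 0) → u = 0 := by
    intro i u hu h1
    by_contra hu0
    obtain ⟨x, hx, h2⟩ := (hD.nondegenerate i u hu hu0).2
    exact h2 (h1 x hx)
  choose b hbm hb using fun i => exists_orthonormal hF (D i) (hnd i) (hD.decomp.finrank_eq i)
  have hon : ∀ p p' : Fin t × Fin k, hermForm n F q (b p.1 p.2) (b p'.1 p'.2) = if p = p' then 1 else 0 := by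
    rintro ⟨i, j⟩ ⟨i', j'⟩
    by_cases h1 : i = i'
    · subst h1
      rw [hb]
      by_cases h2 : j = j'
      · rw [h2, if_pos rfl, if_pos rfl]
      · rw [if_neg h2, if_neg (fun e => h2 (Prod.ext_iff.1 e).2)]
    · rw [hD.orthogonal i i' h1 _ (hbm i j) _ (hbm i' j'), if_neg (fun e => h1 (Prod.ext_iff.1 e).1)]
  have hsum : ∀ i, ∀ v ∈ D i, v = ∑ j, hermForm n F q v (b i j) • b i j := fun i v hv =>
    eq_sum_of_orthonormal (D i) (by rw [hD.decomp.finrank_eq, Fintype.card_fin]) (hbm i) (hb i) hv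
  have hli : LinearIndependent F (fun p : Fin t × Fin k => b p.1 p.2) := linearIndependent_of_orthonormal hon
  have hsp : ⊤ ≤ Submodule.span F (Set.range fun p : Fin t × Fin k => b p.1 p.2) := by
    rw [← hD.decomp.iSup_eq_top]
    refine iSup_le fun i v hv => ?_
    rw [hsum i v hv]
    exact Submodule.sum_mem _ fun j _ => Submodule.smul_mem _ _ (Submodule.subset_span ⟨(i, j), rfl⟩)
  have hcard : t * k = n := by
    have h1 := Module.finrank_eq_card_basis (Module.Basis.mk hli hsp)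
    rw [Module.finrank_fin_fun, Fintype.card_prod, Fintype.card_fin, Fintype.card_fin] at h1
    exact h1.symm
  exact ⟨fun p => b p.1 p.2, hD.decomp.two_le, hD.decomp.pos, hD.decomp.finrank_eq, hnd, hD.orthogonal,
    fun p => hbm p.1 p.2, hon, hcard, hsum⟩

namespace OD

variable {t k : ℕ} {D : Fin t → Submodule F (Fin n → F)} {B : Fin t × Fin k → (Fin n → F)} (od : OD q k t D B)

include od

theorem disj {i j : Fin t} (hij : i ≠ j) {v : Fin n → F} (h1 : v ∈ D i) (h2 : v ∈ D j) : v = 0 :=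
  od.nd i v h1 fun u hu => by
    -- `v` is orthogonal to `D i` because `v ∈ D j`
    exact od.orth j i hij.symm v h2 u hu

/-- the frame -/
theorem exists_frame : ∃ e : Fin n ≃ Fin t × Fin k, ON q (B ∘ e) := by
  refine ⟨(finCongr od.card.symm).trans finProdFinEquiv.symm, fun i j => ?_⟩
  rw [Function.comp_apply, Function.comp_apply, od.on]
  simp only [EmbeddingLike.apply_eq_iff_eq]

/-- `i` to `j` -/
theorem perm_eq {s : SU n F q} {σ : Equiv.Perm (Fin t)} (hσ : ∀ i v, act s v ∈ D (σ i) ↔ v ∈ D i) {i : Fin t}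
    {v w : Fin n → F} (hv : v ∈ D i) {j : Fin t} (hw : w ∈ D j) (h : hermForm n F q w (act s v) ≠ 0) : σ i = j := by
  by_contra hne
  exact h (od.orth j (σ i) (Ne.symm hne) w hw _ ((hσ i v).2 hv))

end OD

/-- the stabiliser of a decomposition -/
def MD {t : ℕ} (q : ℕ) (D : Fin t → Submodule F (Fin n → F)) : Subgroup (SU n F q) where
  carrier := {s | ∃ σ : Equiv.Perm (Fin t), ∀ i v, act s v ∈ D (σ i) ↔ v ∈ D i}
  one_mem' := ⟨1, fun i v => by rw [act_one, Equiv.Perm.one_apply]⟩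
  mul_mem' := by
    rintro s s' ⟨σ, hσ⟩ ⟨τ, hτ⟩
    exact ⟨σ * τ, fun i v => by rw [act_mul, Equiv.Perm.mul_apply, hσ, hτ]⟩
  inv_mem' := by
    rintro s ⟨σ, hσ⟩
    refine ⟨σ⁻¹, fun i v => ?_⟩
    rw [← hσ, act_act_inv, ← Equiv.Perm.mul_apply, mul_inv_cancel, Equiv.Perm.one_apply]

/-- the elements which are scalars on the members of a decomposition -/
def TD {t : ℕ} (q : ℕ) (D : Fin t → Submodule F (Fin n → F)) : Subgroup (SU n F q) where
  carrier := {s | ∀ i, ∃ c : F, c ≠ 0 ∧ ∀ v ∈ D i, act s v = c • v}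
  one_mem' := fun i => ⟨1, one_ne_zero, fun v _ => by rw [act_one, one_smul]⟩
  mul_mem' := by
    intro s s' hs hs' i
    obtain ⟨c, hc0, h1⟩ := hs i
    obtain ⟨c', hc0', h2⟩ := hs' i
    refine ⟨c * c', mul_ne_zero hc0 hc0', fun v hv => ?_⟩
    rw [act_mul, h2 v hv, act_smul, h1 v hv, smul_smul, mul_comm]
  inv_mem' := by
    intro s hs i
    obtain ⟨c, hc0, h1⟩ := hs i
    refine ⟨c⁻¹, inv_ne_zero hc0, fun v hv => ?_⟩
    symm
    refine (act_eq_iff _).1 ?_
    rw [act_smul, h1 v hv, smul_smul, inv_mul_cancel₀ hc0, one_smul]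

theorem TD_le {t : ℕ} {D : Fin t → Submodule F (Fin n → F)} : TD q D ≤ MD q D := by
  intro s hs
  refine ⟨1, fun i v => ?_⟩
  rw [Equiv.Perm.one_apply]
  constructor
  · intro h1
    obtain ⟨c, -, h2⟩ := (TD q D).inv_mem hs i
    have h3 := h2 _ h1
    rw [act_inv_act] at h3
    rw [h3]
    exact (D i).smul_mem _ h1
  · intro h1
    obtain ⟨c, -, h2⟩ := hs i
    rw [h2 v h1]
    exact (D i).smul_mem _ h1

/-- Siegel elements of one member -/
theorem siegel_mem (hF : Fintype.card F = q ^ 2) {t k : ℕ} {D : Fin t → Submodule F (Fin n → F)}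
    {B : Fin t × Fin k → (Fin n → F)} (od : OD q k t D B) {i : Fin t} {v z : Fin n → F} (hv : v ∈ D i) (hz : z ∈ D i)
    {μ : F} (h : IsSiegel q v z μ) : siegel hF v z μ h ∈ MD q D := by
  have h1 : ∀ j, ∀ u ∈ D j, act (siegel hF v z μ h) u ∈ D j := by
    intro j u hu
    by_cases hij : j = i
    · subst hij
      rw [act_siegel]
      exact (D j).add_mem ((D j).add_mem hu ((D j).smul_mem _ hz)) ((D j).smul_mem _ hv)
    · rw [act_siegel_of_orth hF h (od.orth j i hij u hu v hv) (od.orth j i hij u hu z hz)]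
      exact hu
  have h2 : ∀ j, (D j).map (Matrix.toLin' (mat (siegel hF v z μ h))) = D j := by
    intro j
    apply Submodule.eq_of_le_of_finrank_eq
    · rintro _ ⟨u, hu, rfl⟩
      rw [Matrix.toLin'_apply, ← act_def]
      exact h1 j u hu
    · have hinj : Function.Injective (Matrix.toLin' (mat (siegel hF v z μ h))) := by
        intro x y hxy
        rw [Matrix.toLin'_apply, Matrix.toLin'_apply] at hxy
        exact act_injective _ hxy
      exact (Submodule.equivMapOfInjective _ hinj (D j)).finrank_eq.symm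
  exact ⟨1, fun j u => mem_iff_of_map (h2 j) u⟩

/-- **C2, orthogonal decompositions** -/
theorem c2a : Kills C2a := by
  intro Q _ _ hs A Γ h F _ _ n q m hF hn h32 _ M hM hle
  obtain ⟨t, k, D, hD, rfl⟩ := hM
  have hn0 : 0 < n := by omega
  have hq2 := two_le hF
  set P := PJ.ofModel m hn0 with hP
  have hst : A.comap P.φ ≤ MD q D := by
    intro s hsA
    rw [Subgroup.mem_comap, hP, mem_iff] at hsA
    obtain ⟨σ, hσ⟩ := (Subgroup.mem_inf.1 (hle hsA)).1
    exact ⟨σ, fun i v => mem_iff_of_map (hσ i) v⟩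
  obtain ⟨B, od⟩ := exists_od hF hD
  obtain ⟨e, he⟩ := od.exists_frame
  have hBf : ∀ p, B p = (B ∘ e) (e.symm p) := fun p => by rw [Function.comp_apply, Equiv.apply_symm_apply]
  have hon := od.on
  have ht2 := od.t2
  have hk1 := od.k1
  have hcard := od.card
  let i0 : Fin t := ⟨0, by omega⟩
  let i1 : Fin t := ⟨1, by omega⟩
  have hi : i0 ≠ i1 := by simp [i0, i1]
  -- `k = 1`
  by_cases hk : k = 1
  · subst hk
    refine mono_kill h P hF hn h32 he (fun s hsA l => ?_)
    obtain ⟨σ, hσ⟩ := hst hsA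
    have h1 : act s (B (e l)) ∈ D (σ (e l).1) := (hσ _ _).2 (od.mem _)
    have h2 := od.sum _ _ h1
    rw [Fin.sum_univ_one, hBf (σ (e l).1, 0)] at h2
    exact ⟨_, _, h2⟩
  by_cases hk2 : q = 2 ∧ k = 2
  · obtain ⟨rfl, rfl⟩ := hk2
    refine mono_kill h P hF hn h32 he (fun s hsA l => ?_)
    obtain ⟨σ, hσ⟩ := hst hsA
    have h1 : act s (B (e l)) ∈ D (σ (e l).1) := (hσ _ _).2 (od.mem _)
    have h2 := od.sum _ _ h1
    rw [Fin.sum_univ_two] at h2
    set α := hermForm n F 2 (act s (B (e l))) (B (σ (e l).1, 0)) with hα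
    set β := hermForm n F 2 (act s (B (e l))) (B (σ (e l).1, 1)) with hβ
    have h3 : α ^ 3 + β ^ 3 = 1 := by
      have h4 : hermForm n F 2 (act s (B (e l))) (act s (B (e l))) = 1 := by rw [herm_act, hon, if_pos rfl]
      rw [h2] at h4
      simp only [herm_add_left, herm_add_right hF, herm_smul_left, herm_smul_right, hon, if_true,
        if_neg (show (σ (e l).1, (0 : Fin 2)) ≠ (σ (e l).1, 1) from fun h => by simpa using (Prod.ext_iff.1 h).2),
        if_neg (show (σ (e l).1, (1 : Fin 2)) ≠ (σ (e l).1, 0) from fun h => by simpa using (Prod.ext_iff.1 h).2)] at h4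
      linear_combination h4
    have hcube : ∀ x : F, x ≠ 0 → x ^ 3 = 1 := by
      intro x hx
      have h5 := FiniteField.pow_card_sub_one_eq_one x hx
      rw [hF] at h5
      exact h5
    by_cases hα0 : α = 0
    · rw [hα0, zero_smul, zero_add, hBf (σ (e l).1, 1)] at h2
      exact ⟨_, _, h2⟩
    · by_cases hβ0 : β = 0
      · rw [hβ0, zero_smul, add_zero, hBf (σ (e l).1, 0)] at h2
        exact ⟨_, _, h2⟩
      · exfalso
        rw [hcube α hα0, hcube β hβ0] at h3
        exact one_ne_zero (add_eq_left.1 h3)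
  -- the general case
  have hk3 : 2 ≤ k := by omega
  have hqk : 3 ≤ q ∨ 3 ≤ k := by
    by_contra hcon
    apply hk2
    omega
  let j0 : Fin k := ⟨0, by omega⟩
  let j1 : Fin k := ⟨1, by omega⟩
  have hj : j0 ≠ j1 := by simp [j0, j1]
  obtain ⟨c, hc⟩ := exists_norm_eq hF (c := (-1 : F)) (by rw [neg_pow_q hF, one_pow])
  have hc0 : c ≠ 0 := by
    rintro rfl
    rw [zero_mul] at hc
    exact one_ne_zero (neg_eq_zero.1 hc.symm)
  have hon1 : ∀ p, hermForm n F q (B p) (B p) = 1 := fun p => by rw [hon, if_pos rfl]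
  have hon0 : ∀ p p', p ≠ p' → hermForm n F q (B p) (B p') = 0 := fun p p' h => by rw [hon, if_neg h]
  have hsing : ∀ p p', p ≠ p' → hermForm n F q (B p + c • B p') (B p + c • B p') = 0 := by
    intro p p' hp
    simp only [herm_add_left, herm_add_right hF, herm_smul_left, herm_smul_right, hon1, hon0 p p' hp,
      hon0 p' p hp.symm]
    linear_combination hc
  -- `M ≠ ⊤`
  have hMne : MD q D ≠ ⊤ := by
    intro hM
    obtain ⟨μ, hμ0, hμ⟩ := exists_trace_zero_ne hF
    have hp : ((i0, j0) : Fin t × Fin k) ≠ (i1, j0) := fun h => hi (Prod.ext_iff.1 h).1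
    obtain ⟨σ, hσ⟩ : transv hF _ (hsing (i0, j0) (i1, j0) hp) μ hμ ∈ MD q D := by rw [hM]; exact mem_top _
    have h1 : act (transv hF _ (hsing (i0, j0) (i1, j0) hp) μ hμ) (B (i0, j1)) = B (i0, j1) := by
      rw [act_transv, herm_add_right hF, herm_smul_right, hon0 _ _ (fun h => hj.symm (Prod.ext_iff.1 h).2),
        hon0 _ _ (fun h => hi (Prod.ext_iff.1 h).1), mul_zero, add_zero, mul_zero, zero_smul, add_zero]
    have h2 : σ i0 = i0 := by
      refine od.perm_eq hσ (od.mem (i0, j1)) (od.mem (i0, j1)) ?_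
      rw [h1, hon1]
      exact one_ne_zero
    have h3 := (hσ i0 (B (i0, j0))).2 (od.mem (i0, j0))
    rw [h2] at h3
    have h4 := od.orth i0 i1 hi _ h3 _ (od.mem (i1, j0))
    rw [act_transv] at h4
    simp only [herm_add_left, herm_add_right hF, herm_smul_left, herm_smul_right, hon1, hon0 _ _ hp, zero_add,
      mul_zero, add_zero, mul_one] at h4
    exact mul_ne_zero hμ0 hc0 h4
  have hM := P.comap_eq h.max hst hMne
  have hmem : ∀ s, s ∈ MD q D ↔ P.φ s ∈ A := fun s => by rw [← hM]; rfl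
  -- the scalars
  obtain ⟨a, ha, ha2⟩ := exists_root hF (m := 2) (by
    intro h1
    have := Nat.le_of_dvd (by norm_num) h1
    omega)
  have ha0 : a ≠ 0 := by
    rintro rfl
    rw [zero_pow (by omega)] at ha
    exact zero_ne_one ha
  set δ : Fin t → F := fun i => if i = i0 then a else if i = i1 then a⁻¹ else 1 with hδ
  have hδ1 : ∏ i, δ i = 1 := by
    have h1 : ∀ i, δ i = (if i = i0 then a else 1) * (if i = i1 then a⁻¹ else 1) := by
      intro i
      rw [hδ]
      by_cases h1 : i = i0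
      · subst h1
        simp only [if_true, if_neg hi, mul_one]
      · simp only [if_neg h1, one_mul]
    simp only [h1, Finset.prod_mul_distrib, Finset.prod_ite_eq', Finset.mem_univ, if_true]
    exact mul_inv_cancel₀ ha0
  obtain ⟨y, hy⟩ := exists_diag hF he (fun l => δ (e l).1) (by
      rw [Equiv.prod_comp e (fun p : Fin t × Fin k => δ p.1), Fintype.prod_prod_type]
      simp only [Finset.prod_const, Finset.card_univ, Fintype.card_fin, Finset.prod_pow, hδ1, one_pow]) (by
      intro l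
      simp only [hδ]
      split_ifs
      · exact ha
      · rw [inv_pow, ha, inv_one]
      · exact one_pow _)
  have hyB : ∀ p, act y (B p) = δ p.1 • B p := by
    intro p
    have h1 := hy (e.symm p)
    rw [← hBf, Equiv.apply_symm_apply] at h1
    exact h1
  have hyT : y ∈ TD q D := by
    intro i
    refine ⟨δ i, ?_, fun v hv => ?_⟩
    · simp only [hδ]
      split_ifs
      · exact ha0
      · exact inv_ne_zero ha0
      · exact one_ne_zero
    · conv_lhs => rw [od.sum i v hv]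
      conv_rhs => rw [od.sum i v hv]
      rw [act_sum, Finset.smul_sum]
      refine Finset.sum_congr rfl fun j _ => ?_
      rw [act_smul, hyB, smul_comm]
  have hyq : y ^ (q + 1) = 1 := by
    apply ext_frame he
    intro l
    rw [act_pow_diag hy, act_one]
    have : δ (e l).1 ^ (q + 1) = 1 := by
      simp only [hδ]
      split_ifs
      · exact ha
      · rw [inv_pow, ha, inv_one]
      · exact one_pow _
    rw [this, one_smul]
  have hyns : P.φ y ≠ 1 := by
    intro h1
    obtain ⟨d, hd⟩ := (P.ker y).1 h1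
    have h2 := hd (B (i0, j0))
    have h3 := hd (B (i1, j0))
    rw [hyB] at h2 h3
    have h4 := congrArg (fun v => hermForm n F q v (B (i0, j0))) h2
    have h5 := congrArg (fun v => hermForm n F q v (B (i1, j0))) h3
    simp only [herm_smul_left, hon1, mul_one, hδ, if_true, if_neg hi.symm] at h4 h5
    apply ha2
    rw [pow_two]
    nth_rw 2 [h4]
    rw [← h5, mul_inv_cancel₀ ha0]
  have hTA : (TD q D).map P.φ ≤ A := by
    rintro _ ⟨d, hd, rfl⟩
    exact (hmem d).1 (TD_le hd)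
  -- decomposition of vectors
  have hext : ∀ s s' : SU n F q, (∀ i, ∀ v ∈ D i, act s v = act s' v) → s = s' := by
    intro s s' h1
    apply ext_frame he
    intro l
    exact h1 _ _ (od.mem (e l))
  obtain ⟨K, r, hKA, hNK, hr, hKab, hKexp, hKn, hKc, -⟩ := exists_fit h hTA (by
    rintro a' ha' _ ⟨d, hd, rfl⟩
    obtain ⟨s, rfl⟩ := P.surj a'
    refine ⟨s * d * s⁻¹, ?_, by rw [map_mul, map_mul, map_inv]⟩
    obtain ⟨σ, hσ⟩ := (MD q D).inv_mem ((hmem s).2 ha')
    intro i
    obtain ⟨c', hc'0, hc'⟩ := hd (σ i)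
    refine ⟨c', hc'0, fun v hv => ?_⟩
    rw [act_mul, act_mul, hc' _ ((hσ i v).2 hv), act_smul, act_act_inv]) (by
    rintro _ ⟨d, hd, rfl⟩ _ ⟨d', hd', rfl⟩
    rw [← map_mul, ← map_mul]
    congr 1
    apply hext
    intro i v hv
    obtain ⟨c1, -, h1⟩ := hd i
    obtain ⟨c2, -, h2⟩ := hd' i
    rw [act_mul, act_mul, h1 v hv, h2 v hv, act_smul, act_smul, h1 v hv, h2 v hv, smul_comm]) (by
    intro h1
    have h2 : P.φ y ∈ (TD q D).map P.φ := ⟨y, hyT, rfl⟩
    rw [h1, mem_bot] at h2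
    exact hyns h2)
  have hyK : P.φ y ∈ K := hNK ⟨y, hyT, rfl⟩
  have hrq : r ∣ q + 1 := by
    have h1 : orderOf (P.φ y) ∣ r := orderOf_dvd_of_pow_eq_one (hKexp _ hyK)
    have h2 : orderOf (P.φ y) ∣ q + 1 := orderOf_dvd_of_pow_eq_one (by rw [← map_pow, hyq, map_one])
    rcases (Nat.dvd_prime hr).1 h1 with h3 | h3
    · exact absurd (orderOf_eq_one_iff.1 h3) hyns
    · rwa [h3] at h2
  have kd : KD P A K r := ⟨hKA, hr, hrq, hKab, hKexp, hKn, hKc⟩
  -- the transvections
  have hp : ((i0, j0) : Fin t × Fin k) ≠ (i0, j1) := fun h => hj (Prod.ext_iff.1 h).2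
  set v := B (i0, j0) + c • B (i0, j1) with hvdef
  have hvv : hermForm n F q v v = 0 := hsing _ _ hp
  have hvD : v ∈ D i0 := (D i0).add_mem (od.mem (i0, j0)) ((D i0).smul_mem _ (od.mem (i0, j1)))
  have hv0 : v ≠ 0 := by
    intro e1
    have h1 : hermForm n F q v (B (i0, j0)) = 1 := by
      rw [hvdef, herm_add_left, herm_smul_left, hon1, hon0 _ _ hp.symm, mul_zero, add_zero]
    rw [e1, herm_zero_left] at h1
    exact zero_ne_one h1
  have htA : ∀ (μ : F) (hμ : μ + μ ^ q = 0), P.φ (transv hF v hvv μ hμ) ∈ A := fun μ hμ =>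
    (hmem _).1 (siegel_mem hF od hvD (D i0).zero_mem (isSiegel_zero hvv hμ))
  obtain ⟨g, hgK, hgv⟩ := kd.step1 hF hv0 hvv htA
  by_cases hq3 : 3 ≤ q
  · obtain ⟨μ, hμ0, hμ⟩ := exists_trace_zero_ne hF
    obtain ⟨s, hs0, hs1, hs⟩ := exists_trace_zero_ne' hF hq3 (-μ)
    exact kd.step2 hF hn hvv htA hgK hgv hμ hs hμ0 hs0 (fun e1 => hs1 (by linear_combination e1))
  · have hk3' : 3 ≤ k := by omega
    obtain ⟨σ, hσ⟩ := (hmem g).2 (hKA hgK)
    have h1 : σ i0 = i0 := od.perm_eq hσ hvD hvD hgv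
    have hwD : act g v ∈ D i0 := by
      have := (hσ i0 v).2 hvD
      rwa [h1] at this
    have hww : hermForm n F q (act g v) (act g v) = 0 := by rw [herm_act]; exact hvv
    obtain ⟨z, hzD, hzv, hzw, hzz⟩ := exists_z hF (od.nd i0) (by rw [od.fin]; exact hk3') hvD hwD hvv hww hgv
    refine kd.step3 hF hvv htA hgK hgv hzv hzw hzz (fun μ hS => (hmem _).1 (siegel_mem hF od hvD hzD hS))
      (u := B (i1, j0)) ?_ ?_ ?_ ?_
    · intro e1
      have h2 := hon1 (i1, j0)
      rw [e1, herm_zero_left] at h2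
      exact zero_ne_one h2
    · exact od.orth i1 i0 hi.symm _ (od.mem (i1, j0)) _ hvD
    · exact od.orth i1 i0 hi.symm _ (od.mem (i1, j0)) _ hwD
    · exact od.orth i1 i0 hi.symm _ (od.mem (i1, j0)) _ hzD

end Cfsg.Agent.H380.EPU
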