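import Cfsg.Agent.H380.EPU.KData
import Cfsg.Agent.H189.SN.Sec
import Cfsg.Agent.LieClassical.SUBasic

/-!
# S3499, unitary socles: orthonormal frames, the monomial case (helper380)

* `exists_diag` : diagonal elements in an orthonormal frame;
* `kill_ab` : `T` an abelian normal subgroup of the preimage of `A`, `1 ≠ y ∈ T` commutes with `x ∉ A`: impossible;
* `mono_kill` : the preimage of `A` is monomial in an orthonormal frame: impossible.
-/

set_option autoImplicit false
set_option linter.unusedSectionVars false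

namespace Cfsg.Agent.H380.EPU

open Subgroup Matrix Cfsg Cfsg.Geo Cfsg.Agent.H284 Cfsg.Agent.H419.EP Cfsg.Agent.LieClassical.HermBasic
  Cfsg.Agent.LieClassical.HermSiegel Cfsg.Agent.ClassicalGeometry.PSUAutBasic Cfsg.Agent.ClassicalGeometry.HermOrtho
open Cfsg.Agent.H189.SN (ON phi Im Im_mulVec phi_Im phi_perp)
open Cfsg.Agent.LieClassical.SUBasic (suDiag exists_norm_one)
open scoped MatrixGroups

variable {Q : Type*} [Group Q] {F : Type*} [Field F] [Fintype F] {n m q : ℕ} {A : Subgroup Q}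

/-! ### the field -/

/-- a root of unity of order dividing `q + 1` with `a ^ m ≠ 1` -/
theorem exists_root (hF : Fintype.card F = q ^ 2) {m : ℕ} (hm : ¬ (q + 1) ∣ m) : ∃ a : F, a ^ (q + 1) = 1 ∧ a ^ m ≠ 1 := by
  have hq := two_le hF
  obtain ⟨g, hg⟩ := IsCyclic.exists_generator (α := Fˣ)
  have h1 : orderOf g = (q + 1) * (q - 1) := by
    rw [orderOf_eq_card_of_forall_mem_zpowers hg, card_units_eq hF]
  have h2 : orderOf (g ^ (q - 1)) = q + 1 := by
    rw [orderOf_pow_of_dvd (by omega) (by rw [h1]; exact dvd_mul_left _ _), h1, Nat.mul_div_cancel _ (by omega)]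
  refine ⟨((g ^ (q - 1) : Fˣ) : F), ?_, ?_⟩
  · rw [← Units.val_pow_eq_pow_val, ← h2, pow_orderOf_eq_one, Units.val_one]
  · intro h3
    rw [← Units.val_pow_eq_pow_val, Units.val_eq_one] at h3
    rw [← orderOf_dvd_iff_pow_eq_one, h2] at h3
    exact hm h3

/-- enough elements of trace zero -/
theorem exists_trace_zero_ne' (hF : Fintype.card F = q ^ 2) (hq : 3 ≤ q) (c : F) :
    ∃ μ : F, μ ≠ 0 ∧ μ ≠ c ∧ μ + μ ^ q = 0 := by
  obtain ⟨ζ, hζ0, hζ⟩ := exists_trace_zero_ne hF
  have h1 : ∃ x : F, x ^ q = x ∧ x ≠ 0 ∧ x ≠ c / ζ := by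
    by_contra hcon
    push Not at hcon
    have h2 : {x : F | x ^ q = x} ⊆ {0, c / ζ} := by
      intro x hx
      by_cases h3 : x = 0
      · exact Or.inl h3
      · exact Or.inr (hcon x hx h3)
    have h3 := Set.ncard_le_ncard h2 (Set.toFinite _)
    have h4 : ({0, c / ζ} : Set F).ncard ≤ 2 := by
      refine (Set.ncard_insert_le _ _).trans ?_
      rw [Set.ncard_singleton]
    have h5 : {x : F | x ^ q = x}.ncard = q := by
      rw [← Nat.card_coe_set_eq]
      exact card_fixed hF
    omega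
  obtain ⟨x, hx, hx0, hxc⟩ := h1
  refine ⟨ζ * x, mul_ne_zero hζ0 hx0, ?_, ?_⟩
  · intro e
    apply hxc
    rw [← e, mul_div_cancel_left₀ _ hζ0]
  · rw [mul_pow, hx]
    linear_combination x * hζ

/-! ### frames -/

theorem ON.ne_zero {b : Fin m → (Fin n → F)} (hb : ON q b) (l : Fin m) (hq : q ≠ 0) : b l ≠ 0 := by
  intro e
  have h1 := hb l l
  rw [e, if_pos rfl, herm_zero_left] at h1
  exact zero_ne_one h1

theorem expand {b : Fin n → (Fin n → F)} (hb : ON q b) (v : Fin n → F) :
    v = ∑ l, hermForm n F q v (b l) • b l :=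
  eq_sum_of_orthonormal (⊤ : Submodule F (Fin n → F)) (by rw [finrank_top, Module.finrank_fin_fun, Fintype.card_fin])
    (fun _ => Submodule.mem_top) hb Submodule.mem_top

theorem ext_frame {b : Fin n → (Fin n → F)} (hb : ON q b) {s s' : SU n F q} (h : ∀ l, act s (b l) = act s' (b l)) :
    s = s' := by
  apply ext_act
  intro v
  rw [expand hb v, act_sum, act_sum]
  refine Finset.sum_congr rfl fun l _ => ?_
  rw [act_smul, act_smul, h]

theorem single_eq {b : Fin m → (Fin n → F)} (l : Fin m) : b l = Im b *ᵥ Pi.single l 1 := by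
  rw [Im_mulVec, Finset.sum_eq_single l]
  · rw [Pi.single_eq_same, one_smul]
  · intro j _ hj
    rw [Pi.single_eq_of_ne hj, zero_smul]
  · intro h
    exact absurd (Finset.mem_univ l) h

/-- diagonal elements -/
theorem exists_diag (hF : Fintype.card F = q ^ 2) {b : Fin n → (Fin n → F)} (hb : ON q b) (a : Fin n → F)
    (hd : ∏ i, a i = 1) (ha : ∀ i, a i ^ (q + 1) = 1) : ∃ y : SU n F q, ∀ l, act y (b l) = a l • b l := by
  refine ⟨phi hF hb (suDiag q a hd ha), fun l => ?_⟩
  have h1 : act (suDiag q a hd ha) (Pi.single l 1) = a l • (Pi.single l 1 : Fin n → F) := by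
    show Matrix.diagonal a *ᵥ (Pi.single l 1 : Fin n → F) = _
    ext i
    rw [mulVec_diagonal, Pi.smul_apply, smul_eq_mul]
    by_cases hi : i = l
    · subst hi; rfl
    · rw [Pi.single_eq_of_ne hi, mul_zero, mul_zero]
  conv_lhs => rw [single_eq (b := b) l, phi_Im, h1, mulVec_smul, ← single_eq]

theorem act_pow_diag {b : Fin n → (Fin n → F)} {a : Fin n → F} {y : SU n F q} (hy : ∀ l, act y (b l) = a l • b l)
    (k : ℕ) (l : Fin n) : act (y ^ k) (b l) = a l ^ k • b l := by
  induction k with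
  | zero => rw [pow_zero, pow_zero, act_one, one_smul]
  | succ k ih => rw [pow_succ, act_mul, hy, act_smul, ih, smul_smul, pow_succ, mul_comm]

theorem prod_three {ι : Type*} [Fintype ι] [DecidableEq ι] {i j k : ι} (hij : i ≠ j) (hik : i ≠ k) (hjk : j ≠ k)
    (α β γ : F) : ∏ l, (if l = i then α else if l = j then β else if l = k then γ else 1) = α * β * γ := by
  have h1 : ∀ l, (if l = i then α else if l = j then β else if l = k then γ else (1 : F)) =
      (if l = i then α else 1) * (if l = j then β else 1) * (if l = k then γ else 1) := by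
    intro l
    by_cases h1 : l = i
    · subst h1
      rw [if_pos rfl, if_pos rfl, if_neg hij, if_neg hik, mul_one, mul_one]
    · rw [if_neg h1, if_neg h1, one_mul]
      by_cases h2 : l = j
      · subst h2
        rw [if_pos rfl, if_pos rfl, if_neg hjk, mul_one]
      · rw [if_neg h2, if_neg h2, one_mul]
  simp only [h1, Finset.prod_mul_distrib, Finset.prod_ite_eq', Finset.mem_univ, if_true]

/-! ### the kill criterion -/

/-- **(T1)** -/
theorem kill_ab [Finite Q] {Γ : Subgroup (MulAut Q)} (h : EPT A Γ) (P : PJ Q n F q) {M T : Subgroup (SU n F q)}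
    (hM : A.comap P.φ = M) (hTM : T ≤ M) (hTn : ∀ s ∈ M, ∀ d ∈ T, s * d * s⁻¹ ∈ T)
    (hTab : ∀ d ∈ T, ∀ d' ∈ T, d * d' = d' * d) {x y : SU n F q} (hx : x ∉ M) (hy : y ∈ T) (hns : P.φ y ≠ 1)
    (hxy : x * y = y * x) : False := by
  have hmem : ∀ s, s ∈ M ↔ P.φ s ∈ A := fun s => by rw [← hM]; rfl
  have hNA : T.map P.φ ≤ A := by
    rintro _ ⟨d, hd, rfl⟩
    exact (hmem d).1 (hTM hd)
  obtain ⟨K, r, -, hNK, -, -, -, -, -, h5⟩ := exists_fit h hNA (by
    rintro a ha _ ⟨d, hd, rfl⟩
    obtain ⟨s, rfl⟩ := P.surj a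
    exact ⟨s * d * s⁻¹, hTn s ((hmem s).2 ha) d hd, by rw [map_mul, map_mul, map_inv]⟩) (by
    rintro _ ⟨d, hd, rfl⟩ _ ⟨d', hd', rfl⟩
    rw [← map_mul, hTab d hd d' hd', map_mul]) (by
    intro e
    have h1 : P.φ y ∈ T.map P.φ := ⟨y, hy, rfl⟩
    rw [e, mem_bot] at h1
    exact hns h1)
  have h6 : P.φ y ∈ K ⊓ cj (P.φ x) A := by
    refine ⟨hNK ⟨y, hy, rfl⟩, mem_cj.2 ?_⟩
    have e : (P.φ x)⁻¹ * P.φ y * P.φ x = P.φ y := by
      rw [mul_assoc, ← map_mul, ← hxy, map_mul, inv_mul_cancel_left]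
    rw [e]
    exact (hmem y).1 (hTM hy)
  rw [h5 _ (fun e => hx ((hmem x).2 e)), mem_bot] at h6
  exact hns h6

/-! ### monomial groups -/

theorem mono_inv {b : Fin n → (Fin n → F)} (hb : ON q b) {s : SU n F q} (h : ∀ l, ∃ (l' : Fin n) (c : F), act s (b l) = c • b l') :
    ∀ l', ∃ (l : Fin n) (c : F), act s⁻¹ (b l') = c • b l := by
  choose τ c hc using h
  have hb0 : ∀ l, b l ≠ 0 := by
    intro l e
    have h1 := hb l l
    rw [e, if_pos rfl, herm_zero_left] at h1
    exact zero_ne_one h1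
  have hc0 : ∀ l, c l ≠ 0 := by
    intro l e
    have h1 := hc l
    rw [e, zero_smul, act_eq_zero] at h1
    exact hb0 l h1
  have hinj : Function.Injective τ := by
    intro l l' e
    have h1 : act s (c l' • b l) = act s (c l • b l') := by
      rw [act_smul, act_smul, hc, hc, e, smul_smul, smul_smul, mul_comm]
    have h2 := congrArg (fun v => hermForm n F q v (b l)) (act_injective s h1)
    by_contra hne
    have h3 : hermForm n F q (b l) (b l) = 1 := by rw [hb, if_pos rfl]
    have h4 : hermForm n F q (b l') (b l) = 0 := by rw [hb, if_neg (Ne.symm hne)]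
    simp only [herm_smul_left, h3, h4, mul_one, mul_zero] at h2
    exact hc0 _ h2
  have hsur := Finite.injective_iff_surjective.1 hinj
  intro l'
  obtain ⟨l, rfl⟩ := hsur l'
  refine ⟨l, (c l)⁻¹, ?_⟩
  symm
  refine (act_eq_iff _).1 ?_
  rw [act_smul, hc, smul_smul, inv_mul_cancel₀ (hc0 l), one_smul]

/-- the monomial group -/
def Mon {b : Fin n → (Fin n → F)} (hb : ON q b) : Subgroup (SU n F q) where
  carrier := {s | ∀ l, ∃ (l' : Fin n) (c : F), act s (b l) = c • b l'}
  one_mem' := fun l => ⟨l, 1, by rw [act_one, one_smul]⟩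
  mul_mem' := by
    intro s s' hs hs' l
    obtain ⟨l', c, h1⟩ := hs' l
    obtain ⟨l'', c', h2⟩ := hs l'
    exact ⟨l'', c * c', by rw [act_mul, h1, act_smul, h2, smul_smul]⟩
  inv_mem' := fun {s} hs => mono_inv hb hs

/-- the diagonal group -/
def Dg {b : Fin n → (Fin n → F)} (hb : ON q b) : Subgroup (SU n F q) where
  carrier := {s | ∀ l, ∃ c : F, act s (b l) = c • b l}
  one_mem' := fun l => ⟨1, by rw [act_one, one_smul]⟩
  mul_mem' := by
    intro s s' hs hs' l
    obtain ⟨c, h1⟩ := hs' l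
    obtain ⟨c', h2⟩ := hs l
    exact ⟨c * c', by rw [act_mul, h1, act_smul, h2, smul_smul]⟩
  inv_mem' := by
    intro s hs l
    obtain ⟨c, h1⟩ := hs l
    have hc0 : c ≠ 0 := by
      rintro rfl
      rw [zero_smul, act_eq_zero] at h1
      have h2 := hb l l
      rw [h1, if_pos rfl, herm_zero_left] at h2
      exact zero_ne_one h2
    refine ⟨c⁻¹, ?_⟩
    symm
    refine (act_eq_iff _).1 ?_
    rw [act_smul, h1, smul_smul, inv_mul_cancel₀ hc0, one_smul]

/-- a non-monomial element commuting with a diagonal element, `q ≥ 3` -/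
theorem exists_xy_three (hF : Fintype.card F = q ^ 2) (hn : 3 ≤ n) (hq : 3 ≤ q) {b : Fin n → (Fin n → F)}
    (hb : ON q b) : ∃ x y : SU n F q, x ∉ Mon hb ∧ y ∈ Dg hb ∧ (¬ ∃ c : F, ∀ v, act y v = c • v) ∧ x * y = y * x := by
  obtain ⟨a, ha, ha3⟩ := exists_root hF (m := 3) (by
    intro h1
    have := Nat.le_of_dvd (by norm_num) h1
    omega)
  have ha0 : a ≠ 0 := by
    rintro rfl
    rw [zero_pow (by omega)] at ha
    exact zero_ne_one ha
  obtain ⟨c, hc⟩ := exists_norm_eq hF (c := (-1 : F)) (by rw [neg_pow_q hF, one_pow])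
  have hc0 : c ≠ 0 := by
    rintro rfl
    rw [zero_mul] at hc
    exact one_ne_zero (neg_eq_zero.1 hc.symm)
  obtain ⟨μ, hμ0, hμ1, hμ⟩ := exists_trace_zero_ne' hF hq (-1)
  let i : Fin n := ⟨0, by omega⟩
  let j : Fin n := ⟨1, by omega⟩
  let k : Fin n := ⟨2, by omega⟩
  have hij : i ≠ j := by simp [i, j]
  have hik : i ≠ k := by simp [i, k]
  have hjk : j ≠ k := by simp [j, k]
  obtain ⟨y, hy⟩ := exists_diag hF hb (fun l => if l = i then a else if l = j then a else if l = k then (a ^ 2)⁻¹ else 1)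
    (by rw [prod_three hij hik hjk, pow_two]; field_simp) (by
      intro l
      split_ifs
      · exact ha
      · exact ha
      · rw [inv_pow, ← pow_mul, mul_comm, pow_mul, ha, one_pow, inv_one]
      · exact one_pow _)
  have hyi : act y (b i) = a • b i := by rw [hy, if_pos rfl]
  have hyj : act y (b j) = a • b j := by rw [hy, if_neg hij.symm, if_pos rfl]
  have hyk : act y (b k) = (a ^ 2)⁻¹ • b k := by rw [hy, if_neg hik.symm, if_neg hjk.symm, if_pos rfl]
  have hii : hermForm n F q (b i) (b i) = 1 := by rw [hb, if_pos rfl]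
  have hjj : hermForm n F q (b j) (b j) = 1 := by rw [hb, if_pos rfl]
  have hIJ : hermForm n F q (b i) (b j) = 0 := by rw [hb, if_neg hij]
  have hJI : hermForm n F q (b j) (b i) = 0 := by rw [hb, if_neg hij.symm]
  have hvv : hermForm n F q (b i + c • b j) (b i + c • b j) = 0 := by
    simp only [herm_add_left, herm_add_right hF, herm_smul_left, herm_smul_right, hii, hjj, hIJ, hJI]
    linear_combination hc
  have hav : act y (b i + c • b j) = a • (b i + c • b j) := by
    rw [act_add, act_smul, hyi, hyj]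
    module
  refine ⟨transv hF _ hvv μ hμ, y, ?_, ?_, ?_, ?_⟩
  · intro hcon
    obtain ⟨l', d, h1⟩ := hcon i
    rw [act_transv, herm_add_right hF, herm_smul_right, hii, hIJ, mul_zero, add_zero, mul_one] at h1
    have h2 := congrArg (fun v => hermForm n F q v (b i)) h1
    have h3 := congrArg (fun v => hermForm n F q v (b j)) h1
    simp only [herm_add_left, herm_smul_left, hii, hIJ, hJI, hjj, mul_zero, add_zero, mul_one, zero_add] at h2 h3
    by_cases hl : l' = j
    · rw [hl, hJI, mul_zero] at h2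
      exact hμ1 (by linear_combination h2)
    · rw [hb, if_neg hl, mul_zero] at h3
      exact mul_ne_zero hμ0 hc0 h3
  · intro l
    exact ⟨_, hy l⟩
  · rintro ⟨d, hd⟩
    have h1 := hd (b i)
    have h2 := hd (b k)
    rw [hyi] at h1
    rw [hyk] at h2
    have h3 := congrArg (fun v => hermForm n F q v (b i)) h1
    have h4 := congrArg (fun v => hermForm n F q v (b k)) h2
    have hkk : hermForm n F q (b k) (b k) = 1 := by rw [hb, if_pos rfl]
    simp only [herm_smul_left, hii, hkk, mul_one] at h3 h4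
    apply ha3
    rw [h3] at h4 ⊢
    rw [pow_succ]
    nth_rw 2 [← h4]
    rw [mul_inv_cancel₀]
    rw [← h3]
    exact pow_ne_zero 2 ha0
  · apply ext_act
    intro v
    rw [act_mul, act_mul, act_transv, act_transv, act_add, act_smul, hav, smul_smul]
    have h1 : hermForm n F q (act y v) (b i + c • b j) = a * hermForm n F q v (b i + c • b j) := by
      have h2 : hermForm n F q (act y v) (act y (b i + c • b j)) = hermForm n F q v (b i + c • b j) := herm_act y _ _
      rw [hav, herm_smul_right] at h2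
      rw [pow_succ'] at ha
      linear_combination a * h2 - hermForm n F q (act y v) (b i + c • b j) * ha
    rw [h1]
    congr 2
    ring

/-- the Fourier matrix over the field of four elements -/
theorem exists_fourier (hF : Fintype.card F = 2 ^ 2) : ∃ M : SU 3 F 2, act M (Pi.single 0 1) = fun _ => 1 := by
  have h2 : (2 : F) = 0 := by
    have h1 : ((Fintype.card F : ℕ) : F) = 0 := FiniteField.cast_card_eq_zero F
    rw [hF] at h1
    have h3 : (2 : F) * 2 = 0 := by norm_num at h1 ⊢; exact h1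
    rcases mul_eq_zero.1 h3 with h | h <;> exact h
  obtain ⟨w, hw3, hw1⟩ := exists_norm_one hF
  have hw : w ^ 2 + w + 1 = 0 := by
    have h1 : (w - 1) * (w ^ 2 + w + 1) = 0 := by
      have h3 : w ^ 3 = 1 := hw3
      linear_combination h3
    rcases mul_eq_zero.1 h1 with h | h
    · exact absurd (sub_eq_zero.1 h) hw1
    · exact h
  have hsq : ∀ x y : F, (x + y) ^ 2 = x ^ 2 + y ^ 2 := fun x y => by linear_combination x * y * h2
  refine ⟨mkSU !![1, 1, 1; 1, w, w ^ 2; 1, w ^ 2, w] ?_ ?_, ?_⟩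
  · rw [Matrix.det_fin_three]
    simp only [Matrix.of_apply, Matrix.cons_val', Matrix.cons_val_zero, Matrix.cons_val_one, Matrix.cons_val_fin_one,
      Matrix.cons_val]
    linear_combination (3 - w * (w - 1)) * hw + (-3 * w - 2) * h2
  · intro u v
    simp only [herm_def, Fin.sum_univ_three, Matrix.mulVec, dotProduct, Matrix.of_apply, Matrix.cons_val',
      Matrix.cons_val_zero, Matrix.cons_val_one, Matrix.cons_val_fin_one, Matrix.cons_val, one_mul, hsq, mul_pow]
    linear_combination (u 0 * v 0 ^ 2 + u 1 * v 1 ^ 2 + u 2 * v 2 ^ 2) * h2 +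
      ((1 - w + w ^ 2) * (u 0 * v 1 ^ 2 + u 0 * v 2 ^ 2) + (u 1 * v 0 ^ 2 + u 2 * v 0 ^ 2) +
        (w - 1) * (w ^ 3 + 2) * (u 1 * v 1 ^ 2 + u 2 * v 2 ^ 2) +
        (1 + (w + w ^ 2) * (w - 1)) * (u 1 * v 2 ^ 2 + u 2 * v 1 ^ 2)) * hw
  · ext i
    show (!![1, 1, 1; 1, w, w ^ 2; 1, w ^ 2, w] *ᵥ (Pi.single 0 1 : Fin 3 → F)) i = 1
    rw [Matrix.mulVec_single_one]
    fin_cases i <;> rfl

/-- a non-monomial element commuting with a diagonal element, `q = 2` -/
theorem exists_xy_two (hF : Fintype.card F = 2 ^ 2) (hn : 4 ≤ n) {b : Fin n → (Fin n → F)}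
    (hb : ON 2 b) : ∃ x y : SU n F 2, x ∉ Mon hb ∧ y ∈ Dg hb ∧ (¬ ∃ c : F, ∀ v, act y v = c • v) ∧ x * y = y * x := by
  obtain ⟨a, ha, ha1⟩ := exists_norm_one hF
  have ha3 : a ^ 3 = 1 := ha
  let i : Fin n := ⟨0, by omega⟩
  let j : Fin n := ⟨1, by omega⟩
  let k : Fin n := ⟨2, by omega⟩
  let l₃ : Fin n := ⟨3, by omega⟩
  have hij : i ≠ j := by simp [i, j]
  have hik : i ≠ k := by simp [i, k]
  have hjk : j ≠ k := by simp [j, k]
  obtain ⟨y, hy⟩ := exists_diag hF hb (fun l => if l = i then a else if l = j then a else if l = k then a else 1)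
    (by rw [prod_three hij hik hjk, ← ha3]; ring) (by
      intro l
      split_ifs
      · exact ha
      · exact ha
      · exact ha
      · exact one_pow _)
  let e : Fin 3 → Fin n := fun p => ⟨p, by omega⟩
  have he : ∀ p p', e p = e p' ↔ p = p' := by
    intro p p'
    rw [Fin.ext_iff, Fin.ext_iff]
  have hb3 : ON 2 (fun p => b (e p)) := by
    intro p p'
    rw [hb]
    simp only [he]
  have hye : ∀ p, act y (b (e p)) = a • b (e p) := by
    intro p
    rw [hy]
    fin_cases p
    · rw [if_pos (by rfl)]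
    · rw [if_neg (fun h => by simp [e, i] at h), if_pos (by rfl)]
    · rw [if_neg (fun h => by simp [e, i] at h), if_neg (fun h => by simp [e, j] at h), if_pos (by rfl)]
  have hyn : ∀ l, (∀ p, l ≠ e p) → act y (b l) = b l := by
    intro l hl
    rw [hy, if_neg (show l ≠ i from hl 0), if_neg (show l ≠ j from hl 1), if_neg (show l ≠ k from hl 2), one_smul]
  obtain ⟨M, hM⟩ := exists_fourier hF
  have hx0 : ∀ p, ∃ c : Fin 3 → F, act (phi hF hb3 M) (b (e p)) = ∑ p', c p' • b (e p') := by
    intro p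
    refine ⟨act M (Pi.single p 1), ?_⟩
    have h1 : b (e p) = Im (fun p => b (e p)) *ᵥ Pi.single p 1 := single_eq (b := fun p => b (e p)) p
    rw [h1, phi_Im, Im_mulVec]
  have hxi : act (phi hF hb3 M) (b i) = ∑ p' : Fin 3, b (e p') := by
    have h1 : b i = Im (fun p => b (e p)) *ᵥ Pi.single 0 1 := single_eq (b := fun p => b (e p)) 0
    rw [h1, phi_Im, Im_mulVec, hM]
    simp only [one_smul]
  have hxn : ∀ l, (∀ p, l ≠ e p) → act (phi hF hb3 M) (b l) = b l := by
    intro l hl
    apply phi_perp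
    intro p
    rw [hb, if_neg (hl p)]
  refine ⟨phi hF hb3 M, y, ?_, fun l => ⟨_, hy l⟩, ?_, ?_⟩
  · intro hcon
    obtain ⟨l', d, h1⟩ := hcon i
    rw [hxi, Fin.sum_univ_three] at h1
    have h2 := congrArg (fun v => hermForm n F 2 v (b i)) h1
    have h3 := congrArg (fun v => hermForm n F 2 v (b j)) h1
    have e0 : e 0 = i := rfl
    have e1 : e 1 = j := rfl
    have e2 : e 2 = k := rfl
    have hb' : ∀ i j, hermForm n F 2 (b i) (b j) = if i = j then 1 else 0 := hb
    simp only [herm_add_left, herm_smul_left, hb', e0, e1, e2, if_true, if_neg hij, if_neg hij.symm, if_neg hik.symm,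
      if_neg hjk.symm, add_zero, zero_add] at h2 h3
    by_cases hl : l' = i
    · rw [hl, if_neg hij, mul_zero] at h3
      exact one_ne_zero h3
    · rw [if_neg hl, mul_zero] at h2
      exact one_ne_zero h2
  · rintro ⟨d, hd⟩
    have h1 := hd (b i)
    have h2 := hd (b l₃)
    rw [show b i = b (e 0) from rfl, hye] at h1
    rw [hyn l₃ (by intro p h; rw [Fin.ext_iff] at h; have := p.2; simp only [e, l₃] at h; omega)] at h2
    have h3 := congrArg (fun v => hermForm n F 2 v (b (e 0))) h1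
    have h4 := congrArg (fun v => hermForm n F 2 v (b l₃)) h2
    have hb' : ∀ i j, hermForm n F 2 (b i) (b j) = if i = j then 1 else 0 := hb
    simp only [herm_smul_left, hb', if_true, mul_one] at h3 h4
    exact ha1 (h3.trans h4.symm)
  · apply ext_frame hb
    intro l
    rw [act_mul, act_mul]
    by_cases hl : ∃ p, l = e p
    · obtain ⟨p, rfl⟩ := hl
      obtain ⟨c, hc⟩ := hx0 p
      rw [hye, act_smul, hc, act_sum, Finset.smul_sum]
      refine Finset.sum_congr rfl fun p' _ => ?_
      rw [act_smul, hye, smul_smul, smul_smul, mul_comm]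
    · push Not at hl
      rw [hyn l hl, hxn l hl, hyn l hl]

/-- **the monomial case** -/
theorem mono_kill [Finite Q] {Γ : Subgroup (MulAut Q)} (h : EPT A Γ) (P : PJ Q n F q) (hF : Fintype.card F = q ^ 2)
    (hn : 3 ≤ n) (h32 : ¬ (n = 3 ∧ q = 2)) {b : Fin n → (Fin n → F)} (hb : ON q b)
    (hst : ∀ s, P.φ s ∈ A → ∀ l, ∃ (l' : Fin n) (c : F), act s (b l) = c • b l') : False := by
  have hxy : ∃ x y : SU n F q, x ∉ Mon hb ∧ y ∈ Dg hb ∧ (¬ ∃ c : F, ∀ v, act y v = c • v) ∧ x * y = y * x := by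
    by_cases hq : 3 ≤ q
    · exact exists_xy_three hF hn hq hb
    · have hq2 : q = 2 := by have := two_le hF; omega
      subst hq2
      exact exists_xy_two hF (by omega) hb
  obtain ⟨x, y, hx, hy, hns, hcom⟩ := hxy
  have hle : A.comap P.φ ≤ Mon hb := fun s hs => hst s hs
  have hM := P.comap_eq h.max hle (by
    intro e
    apply hx
    rw [e]
    exact mem_top _)
  refine kill_ab h P hM (T := Dg hb) ?_ ?_ ?_ hx hy (fun e => hns ((P.ker y).1 e)) hcom
  · intro s hs l
    obtain ⟨c, hc⟩ := hs l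
    exact ⟨l, c, hc⟩
  · intro s hs d hd l
    obtain ⟨l', c, h1⟩ := mono_inv hb hs l
    obtain ⟨c', h2⟩ := hd l'
    refine ⟨c', ?_⟩
    rw [act_mul, act_mul, h1, act_smul, h2, smul_comm, act_smul, act_smul, ← act_smul s c, ← h1, act_act_inv]
  · intro d hd d' hd'
    apply ext_frame hb
    intro l
    obtain ⟨c, h1⟩ := hd l
    obtain ⟨c', h2⟩ := hd' l
    rw [act_mul, act_mul, h1, h2, act_smul, act_smul, h1, h2, smul_comm]

end Cfsg.Agent.H380.EPU
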