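import Cfsg.Agent.H380.EPU.Tools

/-!
# S3499, unitary socles: transvections and the Fitting subgroup of `A` (helper380)

`KD P A K r`: `K` an elementary abelian `r`-subgroup, normal in `A`, `C_A(K) ≤ K`, `r ∣ q + 1`.

* `KD.step1` : if `A` contains the transvections with centre `v`, some `g ∈ K` has `h(v, g v) ≠ 0`;
* `KD.step2` : `q ≥ 3` : impossible;
* `KD.step3` : impossible if `A` contains a Siegel element with axis `v` and centre `z ⊥ v, g v`, `h(z, z) ≠ 0`.
-/

set_option autoImplicit false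
set_option linter.unusedSectionVars false

namespace Cfsg.Agent.H380.EPU

open Subgroup Matrix Cfsg Cfsg.Geo Cfsg.Agent.H284 Cfsg.Agent.H419.EP Cfsg.Agent.LieClassical.HermBasic
  Cfsg.Agent.LieClassical.HermSiegel Cfsg.Agent.ClassicalGeometry.PSUAutBasic Cfsg.Agent.ClassicalGeometry.HermOrtho
open scoped MatrixGroups

variable {Q : Type*} [Group Q] {F : Type*} [Field F] [Fintype F] {n q : ℕ} {A : Subgroup Q}

/-- a nonzero vector orthogonal to two vectors -/
theorem exists_perp2 (hF : Fintype.card F = q ^ 2) (hn : 3 ≤ n) (v w : Fin n → F) :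
    ∃ u : Fin n → F, u ≠ 0 ∧ hermForm n F q u v = 0 ∧ hermForm n F q u w = 0 := by
  let f : (Fin n → F) →ₗ[F] (F × F) := (hermLeft q v).prod (hermLeft q w)
  have h1 : LinearMap.ker f ≠ ⊥ := by
    apply LinearMap.ker_ne_bot_of_finrank_lt
    rw [Module.finrank_prod, Module.finrank_self, Module.finrank_fin_fun]
    omega
  obtain ⟨u, hu, hu0⟩ := (Submodule.ne_bot_iff _).1 h1
  rw [LinearMap.mem_ker] at hu
  have h2 : (hermForm n F q u v, hermForm n F q u w) = (0, 0) := hu
  exact ⟨u, hu0, (Prod.ext_iff.1 h2).1, (Prod.ext_iff.1 h2).2⟩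

/-- the data of `K` -/
structure KD (P : PJ Q n F q) (A K : Subgroup Q) (r : ℕ) : Prop where
  le : K ≤ A
  pr : r.Prime
  rq : r ∣ q + 1
  ab : ∀ a ∈ K, ∀ b ∈ K, a * b = b * a
  exp : ∀ a ∈ K, a ^ r = 1
  nrm : ∀ a ∈ A, ∀ k ∈ K, a * k * a⁻¹ ∈ K
  cen : ∀ a ∈ A, (∀ k ∈ K, a * k = k * a) → a ∈ K

variable {P : PJ Q n F q} {K : Subgroup Q} {r : ℕ}

theorem KD.coprime (k : KD P A K r) (hF : Fintype.card F = q ^ 2) : (Fintype.card F).Coprime r := by
  rw [hF]
  apply Nat.Coprime.pow_left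
  rw [Nat.coprime_comm, Nat.Prime.coprime_iff_not_dvd k.pr]
  intro h1
  have h2 := (Nat.dvd_add_right h1).1 k.rq
  exact k.pr.one_lt.ne' (Nat.dvd_one.1 h2)

theorem eq_one_of_pow {x : Q} {m r : ℕ} (h1 : x ^ m = 1) (h2 : x ^ r = 1) (h : m.Coprime r) : x = 1 := by
  have h3 := Nat.dvd_gcd (orderOf_dvd_of_pow_eq_one h1) (orderOf_dvd_of_pow_eq_one h2)
  rw [h, Nat.dvd_one, orderOf_eq_one_iff] at h3
  exact h3

/-- elements of `K` fixing a common nonzero vector commute -/
theorem KD.comm (k : KD P A K r) {c c' : SU n F q} (hc : P.φ c ∈ K) (hc' : P.φ c' ∈ K) {u : Fin n → F} (hu : u ≠ 0)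
    (h1 : act c u = u) (h2 : act c' u = u) (y : Fin n → F) : act c (act c' y) = act c' (act c y) := by
  have h3 : P.φ (c * c' * c⁻¹ * c'⁻¹) = 1 := by
    rw [map_mul, map_mul, map_mul, map_inv, map_inv, k.ab _ hc _ hc', mul_inv_cancel_right, mul_inv_cancel]
  obtain ⟨a, ha⟩ := (P.ker _).1 h3
  have h4 : ∀ y, act c (act c' y) = a • act c' (act c y) := by
    intro y
    rw [← ha]
    simp only [act_mul, act_inv_act]
  have h5 := h4 u
  rw [h2, h1, h2] at h5
  have ha1 : a = 1 := by
    have h6 : (a - 1) • u = 0 := by rw [sub_smul, one_smul, ← h5, sub_self]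
    rcases smul_eq_zero.1 h6 with h7 | h7
    · exact sub_eq_zero.1 h7
    · exact absurd h7 hu
  rw [h4, ha1, one_smul]

/-- conjugate of a transvection -/
theorem act_conj_transv (hF : Fintype.card F = q ^ 2) {v : Fin n → F} (hv : hermForm n F q v v = 0) {μ : F}
    (hμ : μ + μ ^ q = 0) (g : SU n F q) (y : Fin n → F) :
    act (g * transv hF v hv μ hμ * g⁻¹) y = y + (μ * hermForm n F q y (act g v)) • act g v := by
  rw [act_mul, act_mul, act_transv, act_add, act_smul, act_act_inv, herm_act_left, inv_inv]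

theorem neg_trace (hF : Fintype.card F = q ^ 2) {μ : F} (hμ : μ + μ ^ q = 0) : -μ + (-μ) ^ q = 0 := by
  rw [neg_pow_q hF]
  linear_combination -hμ

theorem act_transv_inv (hF : Fintype.card F = q ^ 2) {v : Fin n → F} (hv : hermForm n F q v v = 0) {μ : F}
    (hμ : μ + μ ^ q = 0) (y : Fin n → F) :
    act (transv hF v hv μ hμ)⁻¹ y = y - (μ * hermForm n F q y v) • v := by
  symm
  refine (act_eq_iff _).1 ?_
  rw [act_transv]
  simp only [herm_sub_left, herm_smul_left, hv, mul_zero, sub_zero, sub_add_cancel]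

/-- **Step 1** -/
theorem KD.step1 (k : KD P A K r) (hF : Fintype.card F = q ^ 2) {v : Fin n → F} (hv0 : v ≠ 0)
    (hv : hermForm n F q v v = 0) (hA : ∀ (μ : F) (hμ : μ + μ ^ q = 0), P.φ (transv hF v hv μ hμ) ∈ A) :
    ∃ g, P.φ g ∈ K ∧ hermForm n F q v (act g v) ≠ 0 := by
  by_contra hcon
  push Not at hcon
  obtain ⟨μ, hμ0, hμ⟩ := exists_trace_zero_ne hF
  set t := transv hF v hv μ hμ with ht
  have htp : t ^ Fintype.card F = 1 := siegel_pow_card hF _
  have hcop := k.coprime hF
  have hcom : ∀ g, P.φ g ∈ K → P.φ t * P.φ g = P.φ g * P.φ t := by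
    intro g hg
    have hw : hermForm n F q v (act g v) = 0 := hcon g hg
    have hw' : hermForm n F q (act g v) v = 0 := herm_eq_zero_swap hF hw
    set s := g * t * g⁻¹ with hs
    have hst : s * t = t * s := by
      apply ext_act
      intro y
      rw [act_mul s t y, act_mul t s y, hs, ht, act_conj_transv, act_conj_transv, act_transv, act_transv]
      simp only [herm_add_left, herm_smul_left, hw, hw', mul_zero, add_zero]
      abel
    have hsp : s ^ Fintype.card F = 1 := by rw [hs, conj_pow, htp, mul_one, mul_inv_cancel]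
    have hcp : (s * t⁻¹) ^ Fintype.card F = 1 := by
      have h1 : Commute s t⁻¹ := Commute.inv_right hst
      rw [h1.mul_pow, hsp, inv_pow, htp, inv_one, mul_one]
    have hcK : P.φ (s * t⁻¹) ∈ K := by
      have e : P.φ (s * t⁻¹) = P.φ g * (P.φ t * (P.φ g)⁻¹ * (P.φ t)⁻¹) := by
        rw [hs]
        simp only [map_mul, map_inv]
        group
      rw [e]
      exact K.mul_mem hg (k.nrm _ (hA μ hμ) _ (K.inv_mem hg))
    have h1 : P.φ (s * t⁻¹) = 1 := eq_one_of_pow (by rw [← map_pow, hcp, map_one]) (k.exp _ hcK) hcop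
    rw [map_mul, map_inv, mul_inv_eq_one, hs, map_mul, map_mul, map_inv, mul_inv_eq_iff_eq_mul] at h1
    exact h1.symm
  have htK : P.φ t ∈ K := by
    apply k.cen _ (hA μ hμ)
    intro x hx
    obtain ⟨g, rfl⟩ := P.surj x
    exact hcom g hx
  have ht1 : P.φ t = 1 := eq_one_of_pow (by rw [← map_pow, htp, map_one]) (k.exp _ htK) hcop
  obtain ⟨c, hc⟩ := (P.ker _).1 ht1
  have hc1 : c = 1 := by
    have h1 := hc v
    rw [ht, act_transv, hv, mul_zero, zero_smul, add_zero] at h1
    have h2 : (c - 1) • v = 0 := by rw [sub_smul, one_smul, ← h1, sub_self]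
    rcases smul_eq_zero.1 h2 with h3 | h3
    · exact sub_eq_zero.1 h3
    · exact absurd h3 hv0
  obtain ⟨u, hu⟩ := exists_herm_ne_zero hF hv0
  have h1 := hc u
  rw [hc1, one_smul, ht, act_transv, add_eq_left, smul_eq_zero] at h1
  rcases h1 with h1 | h1
  · rcases mul_eq_zero.1 h1 with h2 | h2
    · exact hμ0 h2
    · exact hu (herm_eq_zero_swap hF h2)
  · exact hv0 h1

/-- the commutator of `g ∈ K` and a transvection -/
theorem KD.cmem (k : KD P A K r) (hF : Fintype.card F = q ^ 2) {v : Fin n → F}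
    (hv : hermForm n F q v v = 0) {μ : F} (hμ : μ + μ ^ q = 0) (hA : P.φ (transv hF v hv μ hμ) ∈ A) {g : SU n F q}
    (hg : P.φ g ∈ K) : ∃ c, P.φ c ∈ K ∧ ∀ y, act c y =
      y - (μ * hermForm n F q y v) • v + (μ * hermForm n F q (y - (μ * hermForm n F q y v) • v) (act g v)) • act g v := by
  refine ⟨g * transv hF v hv μ hμ * g⁻¹ * (transv hF v hv μ hμ)⁻¹, ?_, ?_⟩
  · have e : P.φ (g * transv hF v hv μ hμ * g⁻¹ * (transv hF v hv μ hμ)⁻¹) =
        P.φ g * (P.φ (transv hF v hv μ hμ) * (P.φ g)⁻¹ * (P.φ (transv hF v hv μ hμ))⁻¹) := by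
      simp only [map_mul, map_inv]
      group
    rw [e]
    exact K.mul_mem hg (k.nrm _ hA _ (K.inv_mem hg))
  · intro y
    rw [act_mul, act_conj_transv, act_transv_inv]

/-- **Step 2** -/
theorem KD.step2 (k : KD P A K r) (hF : Fintype.card F = q ^ 2) (hn : 3 ≤ n) {v : Fin n → F}
    (hv : hermForm n F q v v = 0) (hA : ∀ (μ : F) (hμ : μ + μ ^ q = 0), P.φ (transv hF v hv μ hμ) ∈ A)
    {g : SU n F q} (hg : P.φ g ∈ K) (hb : hermForm n F q v (act g v) ≠ 0) {μ s : F} (hμ : μ + μ ^ q = 0)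
    (hs : s + s ^ q = 0) (hμ0 : μ ≠ 0) (hs0 : s ≠ 0) (hμs : μ + s ≠ 0) : False := by
  obtain ⟨c, hcK, hc⟩ := k.cmem hF hv hμ (hA μ hμ) hg
  set w := act g v with hw
  have hww : hermForm n F q w w = 0 := by rw [hw, herm_act]; exact hv
  set b := hermForm n F q v w with hbdef
  have hwv : hermForm n F q w v = b ^ q := by rw [hbdef, ← herm_swap hF]
  set t := transv hF v hv s hs with ht
  have hc'K : P.φ (t * c * t⁻¹) ∈ K := by
    rw [map_mul, map_mul, map_inv]
    exact k.nrm _ (hA s hs) _ hcK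
  obtain ⟨u, hu0, huv, huw⟩ := exists_perp2 hF hn v w
  have hcu : act c u = u := by
    rw [hc, huv, mul_zero, zero_smul, sub_zero, huw, mul_zero, zero_smul, add_zero]
  have htu : act t⁻¹ u = u := by
    rw [ht, act_transv_inv, huv, mul_zero, zero_smul, sub_zero]
  have htu' : act t u = u := by
    rw [ht, act_transv, huv, mul_zero, zero_smul, add_zero]
  have hc'u : act (t * c * t⁻¹) u = u := by
    rw [act_mul, act_mul, htu, hcu, htu']
  have hcomm := k.comm hcK hc'K hu0 hcu hc'u v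
  have hcv : act c v = v + (μ * b) • w := by
    rw [hc, hv, mul_zero, zero_smul, sub_zero, ← hbdef]
  have hcw : act c w = -(μ * b ^ q) • v + (1 - μ * μ * (b * b ^ q)) • w := by
    rw [hc, hwv]
    simp only [herm_sub_left, herm_smul_left, hww, ← hbdef, zero_sub]
    module
  have htv : act t v = v := by rw [ht, act_transv, hv, mul_zero, zero_smul, add_zero]
  have htiv : act t⁻¹ v = v := by rw [ht, act_transv_inv, hv, mul_zero, zero_smul, sub_zero]
  have htw : act t w = w + (s * b ^ q) • v := by rw [ht, act_transv, hwv]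
  have htiw : act t⁻¹ w = w - (s * b ^ q) • v := by rw [ht, act_transv_inv, hwv]
  have hc'v : act (t * c * t⁻¹) v = (1 + μ * s * (b * b ^ q)) • v + (μ * b) • w := by
    rw [act_mul, act_mul, htiv, hcv, act_add, act_smul, htv, htw]
    module
  have hc'w : act (t * c * t⁻¹) w = (-((μ + s) * b ^ q) + (1 - μ * μ * (b * b ^ q) - s * μ * (b * b ^ q)) * (s * b ^ q)) • v
      + (1 - μ * μ * (b * b ^ q) - s * μ * (b * b ^ q)) • w := by
    rw [act_mul, act_mul, htiw, act_sub, act_smul, hcw, hcv, act_sub, act_add, act_smul, act_smul, act_smul, act_add,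
      act_smul, htv, htw]
    module
  have h1 := congrArg (fun x => hermForm n F q x w) hcomm
  simp only [hc'v, hcv, act_add, act_smul, hcw, hc'w, herm_add_left, herm_smul_left, hww, ← hbdef, mul_zero,
    add_zero] at h1
  have hbq : b ^ q ≠ 0 := fun e => hb ((pow_q_eq_zero hF).1 e)
  have h2 : s * μ * μ * (μ + s) * (b * b ^ q) * (b * b ^ q) * b = 0 := by linear_combination h1
  have h3 : s * μ * μ * (μ + s) * (b * b ^ q) * (b * b ^ q) * b ≠ 0 := by
    refine mul_ne_zero (mul_ne_zero (mul_ne_zero (mul_ne_zero (mul_ne_zero (mul_ne_zero hs0 hμ0) hμ0) hμs) ?_) ?_) hb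
    · exact mul_ne_zero hb hbq
    · exact mul_ne_zero hb hbq
  exact h3 h2

/-- **Step 3** -/
theorem KD.step3 (k : KD P A K r) (hF : Fintype.card F = q ^ 2) {v : Fin n → F}
    (hv : hermForm n F q v v = 0) (hA : ∀ (μ : F) (hμ : μ + μ ^ q = 0), P.φ (transv hF v hv μ hμ) ∈ A)
    {g : SU n F q} (hg : P.φ g ∈ K) (hb : hermForm n F q v (act g v) ≠ 0) {z : Fin n → F}
    (hzv : hermForm n F q z v = 0) (hzw : hermForm n F q z (act g v) = 0) (hz : hermForm n F q z z ≠ 0)
    (hS : ∀ (μ : F) (h : IsSiegel q v z μ), P.φ (siegel hF v z μ h) ∈ A) {u : Fin n → F} (hu0 : u ≠ 0)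
    (huv : hermForm n F q u v = 0) (huw : hermForm n F q u (act g v) = 0) (huz : hermForm n F q u z = 0) : False := by
  obtain ⟨ν, hν0, hν⟩ := exists_trace_zero_ne hF
  obtain ⟨c, hcK, hc⟩ := k.cmem hF hv hν (hA ν hν) hg
  obtain ⟨μ, hμ⟩ := exists_trace_eq hF (c := -hermForm n F q z z) (by rw [neg_pow_q hF, herm_self_pow hF])
  have hSie : IsSiegel q v z μ := ⟨hv, hzv, by rw [hμ]; ring⟩
  set w := act g v with hw
  have hww : hermForm n F q w w = 0 := by rw [hw, herm_act]; exact hv
  set b := hermForm n F q v w with hbdef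
  have hwv : hermForm n F q w v = b ^ q := by rw [hbdef, ← herm_swap hF]
  have hvz : hermForm n F q v z = 0 := herm_eq_zero_swap hF hzv
  have hwz : hermForm n F q w z = 0 := herm_eq_zero_swap hF hzw
  set x := siegel hF v z μ hSie with hx
  have hxa : ∀ y, act x y = y + hermForm n F q y v • z + (μ * hermForm n F q y v - hermForm n F q y z) • v :=
    fun y => act_siegel hF hSie y
  have hc'K : P.φ (x * c * x⁻¹) ∈ K := by
    rw [map_mul, map_mul, map_inv]
    exact k.nrm _ (hS μ hSie) _ hcK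
  have hcu : act c u = u := by
    rw [hc, huv, mul_zero, zero_smul, sub_zero, huw, mul_zero, zero_smul, add_zero]
  have hxu : act x u = u := by
    rw [hxa, huv, huz, mul_zero, sub_zero, zero_smul, zero_smul, add_zero, add_zero]
  have hxiu : act x⁻¹ u = u := by
    conv_lhs => rw [← hxu]
    rw [act_inv_act]
  have hc'u : act (x * c * x⁻¹) u = u := by
    rw [act_mul, act_mul, hxiu, hcu, hxu]
  have hcomm := k.comm hcK hc'K hu0 hcu hc'u v
  set ζ := hermForm n F q z z with hζ
  have hcv : act c v = v + (ν * b) • w := by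
    rw [hc, hv, mul_zero, zero_smul, sub_zero, ← hbdef]
  have hcw : act c w = -(ν * b ^ q) • v + (1 - ν * ν * (b * b ^ q)) • w := by
    rw [hc, hwv]
    simp only [herm_sub_left, herm_smul_left, hww, ← hbdef, zero_sub]
    module
  have hcz : act c z = z := by
    rw [hc, hzv, mul_zero, zero_smul, sub_zero, hzw, mul_zero, zero_smul, add_zero]
  have hxv : act x v = v := by rw [hxa, hv, hvz, mul_zero, sub_zero, zero_smul, zero_smul, add_zero, add_zero]
  have hxiv : act x⁻¹ v = v := by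
    conv_lhs => rw [← hxv]
    rw [act_inv_act]
  have hxw : act x w = w + b ^ q • z + (μ * b ^ q) • v := by rw [hxa, hwv, hwz, sub_zero]
  have hxz : act x z = z - ζ • v := by
    rw [hxa, hzv, zero_smul, add_zero, mul_zero, zero_sub, neg_smul, ← hζ, ← sub_eq_add_neg]
  set w' := act x w with hw'
  have hc'v : act (x * c * x⁻¹) v = v + (ν * b) • w' := by
    rw [act_mul, act_mul, hxiv, hcv, act_add, act_smul, hxv]
  have hc'w' : act (x * c * x⁻¹) w' = -(ν * b ^ q) • v + (1 - ν * ν * (b * b ^ q)) • w' := by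
    rw [act_mul, act_mul, hw', act_inv_act, hcw, act_add, act_smul, act_smul, hxv]
  have hxiz : act x⁻¹ z = z + ζ • v := by
    have h1 : act x (z + ζ • v) = z := by rw [act_add, act_smul, hxz, hxv, sub_add_cancel]
    conv_lhs => rw [← h1]
    rw [act_inv_act]
  have hc'z : act (x * c * x⁻¹) z = z + (ζ * ν * b) • w' := by
    rw [act_mul, act_mul, hxiz, act_add, act_smul, hcz, hcv, act_add, act_smul, act_add, act_smul, hxz, hxv]
    module
  have hww' : w = w' - b ^ q • z - (μ * b ^ q) • v := by rw [hxw]; module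
  have hw'z : hermForm n F q w' z = b ^ q * ζ := by
    rw [hxw]
    simp only [herm_add_left, herm_smul_left, hwz, hvz, mul_zero, add_zero, zero_add, ← hζ]
  -- pairing with `z`
  have hpz : ∀ y, hermForm n F q (act c y) z = hermForm n F q y z := by
    intro y
    conv_lhs => rw [← hcz]
    rw [herm_act]
  have h1 := congrArg (fun y => hermForm n F q y z) hcomm
  simp only [hpz] at h1
  rw [hcv, act_add, act_smul, hc'v] at h1
  have h2 : hermForm n F q (act (x * c * x⁻¹) w) z = (b * b ^ q) * b ^ q * ζ * ν * (μ ^ q - ν) := by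
    have h3 : act (x * c * x⁻¹) w = act (x * c * x⁻¹) w' - b ^ q • act (x * c * x⁻¹) z -
        (μ * b ^ q) • act (x * c * x⁻¹) v := by
      conv_lhs => rw [hww']
      rw [act_sub, act_sub, act_smul, act_smul]
    rw [h3, hc'w', hc'z, hc'v]
    simp only [herm_add_left, herm_sub_left, herm_smul_left, hvz, hw'z, ← hζ, mul_zero, zero_add]
    have h4 : ζ = -(μ + μ ^ q) := by rw [hμ, neg_neg]
    linear_combination (-(b * b ^ q * b ^ q * ζ * ν)) * h4
  simp only [herm_add_left, herm_smul_left, hvz, hw'z, h2, zero_add] at h1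
  have hbq : b ^ q ≠ 0 := fun e => hb ((pow_q_eq_zero hF).1 e)
  have h5 : ν * b * ((b * b ^ q) * b ^ q * ζ * ν) * (μ ^ q - ν) = 0 := by linear_combination -h1
  have h6 : μ ^ q = ν := by
    rcases mul_eq_zero.1 h5 with h7 | h7
    · exfalso
      revert h7
      exact mul_ne_zero (mul_ne_zero hν0 hb) (mul_ne_zero (mul_ne_zero (mul_ne_zero (mul_ne_zero hb hbq) hbq) hz) hν0)
    · exact sub_eq_zero.1 h7
  have h7 : μ = ν ^ q := by rw [← h6, pow_q_pow_q hF]
  apply hz
  have h8 : ζ = -(μ + μ ^ q) := by rw [hμ, neg_neg]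
  rw [h8, h6, h7]
  linear_combination -hν

end Cfsg.Agent.H380.EPU
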